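import Mathlib
import Cfsg.Agent.H163.E65.TI
import Cfsg.Agent.H657.IBrBlock
import Cfsg.Agent.H597.BrInv
import Cfsg.Agent.S0914
import Cfsg.Agent.Blocks.ExistsModular

/-!
# S3650, characteristics 2 and 3 (helper412)

`modular`: if `T` is a torus as in `TI H T` and every irreducible character of `H` is constant on `T - 1` or has degree
`1937376` and small values on `T - 1` then for `t = 2, 3` elements of order `829` of `H` have fixed points on every nonzero
elementary abelian `t`-group on which `H` acts.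
-/

set_option autoImplicit false

namespace Cfsg.Agent.H412.E65Mod

open Cfsg IsLocalRing Module Cfsg.Agent.H657 Cfsg.Agent.H608.BlockRank Cfsg.Agent.Blocks.Basic
open Cfsg.Agent.H163.E65

attribute [local instance] Above.isAlgClosed

universe u v

section irr

variable {H : Type u} [Group H] [Finite H] {T : Subgroup H}

omit [Finite H] in
/-- the sum of a Brauer character over a subgroup of order prime to `p` -/
theorem sum_bc {M : Ideal AlgInt} {p : ℕ} (hM : IsPModular p M) {V : ValuationSubring ℂ} (hV : Above M V)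
    {n : ℕ} (τ : Representation (ResidueField V) H (Fin n → ResidueField V)) (P : Subgroup H) [Fintype P]
    (hP : (Nat.card P).Coprime p) :
    ∑ g : P, bc p τ (g : H) = (Nat.card P : ℂ) *
      (Module.finrank (ResidueField V) (Representation.invariants (τ.comp P.subtype)) : ℂ) := by
  have h1 := H597.BrInv.C hM hV (P := P) (by rwa [← Nat.card_eq_fintype_card]) (τ.comp P.subtype)
  rw [← Nat.card_eq_fintype_card] at h1
  exact h1

theorem sum_const {P : Type*} [Group P] [Fintype P] {f : P → ℂ} {c : ℂ} (h : ∀ g, g ≠ 1 → f g = c) :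
    ∑ g, f g = f 1 + ((Nat.card P : ℂ) - 1) * c := by
  classical
  have h1 : ∑ g, (f g - c) = f 1 - c := by
    refine Finset.sum_eq_single_of_mem 1 (Finset.mem_univ _) fun g _ hg => ?_
    rw [h g hg, sub_self]
  rw [Finset.sum_sub_distrib, Finset.sum_const, Finset.card_univ, ← Nat.card_eq_fintype_card, nsmul_eq_mul] at h1
  linear_combination h1

omit [Finite H] in
/-- the value of the Brauer character at the identity -/
theorem bc_one {M : Ideal AlgInt} {p : ℕ} (hM : IsPModular p M) {V : ValuationSubring ℂ} (hV : Above M V)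
    {n : ℕ} (τ : Representation (ResidueField V) H (Fin n → ResidueField V)) : bc p τ (1 : H) = n := by
  have h1 := sum_bc hM hV τ (⊥ : Subgroup H) (by simp)
  rw [Fintype.sum_unique] at h1
  have h2 : Representation.invariants (τ.comp (⊥ : Subgroup H).subtype) = ⊤ := by
    rw [eq_top_iff]
    intro w _
    rw [Representation.mem_invariants]
    intro g
    have : g = 1 := Subsingleton.elim _ _
    rw [this, map_one]
    rfl
  rw [h2, finrank_top, Module.finrank_fin_fun, Subgroup.card_bot, Nat.cast_one, one_mul] at h1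
  exact h1

/-- the irreducible Brauer character -/
theorem exists_fix (h : TI H T) (hd : ∀ χ : IrrCharacter H, (∃ c : ℤ, ∀ x ∈ T, x ≠ 1 → (χ : H → ℂ) x = c) ∨
      (charDegree (χ : H → ℂ) = 1937376 ∧ ∀ x ∈ T, x ≠ 1 → ‖(χ : H → ℂ) x‖ ≤ 3)) {t : ℕ} (ht : t = 2 ∨ t = 3)
    {M : Ideal AlgInt} (hM : IsPModular t M) {V : ValuationSubring ℂ} (hV : Above M V)
    {n : ℕ} (τ : Representation (ResidueField V) H (Fin n → ResidueField V)) (hτ : τ.IsIrreducible)
    {x : H} (hx : x ∈ T) (hxo : orderOf x = 829) : ∃ w, w ≠ 0 ∧ τ x w = w := by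
  classical
  have hpt : t.Prime := hM.1
  have hF : Fact t.Prime := ⟨hpt⟩
  have hch : CharP (ResidueField V) t := hV.charP hM
  have hMp := Blocks.Local.isPrime_of_isPModular hM
  have := Fintype.ofFinite H
  have hTc : (Nat.card T).Coprime t := by
    rw [h.card]
    rcases ht with rfl | rfl <;> norm_num
  have hreg : ∀ g ∈ T, IsPRegular t g := by
    intro g hg hdvd
    have h1 : t ∣ Nat.card T := hdvd.trans (by
      rw [← Subgroup.orderOf_mk g hg]
      exact orderOf_dvd_natCard _)
    exact hpt.coprime_iff_not_dvd.1 hTc.symm h1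
  by_contra hcon
  push Not at hcon
  let i : IBr V H := ⟨fun g => LinearMap.trace (ResidueField V) _ (τ g), n, τ, hτ, fun g => rfl⟩
  have hphi : ∀ g, IsPRegular t g → phi t i g = bc t τ g := fun g hg => phi_eq_bc i τ hτ (fun g => rfl) hg
  have hn : n ≠ 0 := by
    rintro rfl
    have := finrank_ne_zero' τ hτ
    rw [Module.finrank_fin_fun] at this
    exact this rfl
  have hphi1 : phi t i 1 = n := by
    rw [hphi 1 (hreg 1 (one_mem _)), bc_one hM hV]
  -- the sum over `⟨x⟩` vanishes
  have hxT : Subgroup.zpowers x ≤ T := by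
    rw [Subgroup.zpowers_le]
    exact hx
  have hA : ∑ g : Subgroup.zpowers x, phi t i (g : H) = 0 := by
    rw [Finset.sum_congr rfl fun (g : Subgroup.zpowers x) _ => hphi (g : H) (hreg _ (hxT g.2)),
      sum_bc hM hV τ _ (by rw [Nat.card_zpowers, hxo]; rcases ht with rfl | rfl <;> norm_num)]
    have h2 : Representation.invariants (τ.comp (Subgroup.zpowers x).subtype) = ⊥ := by
      rw [eq_bot_iff]
      intro w hw
      rw [Representation.mem_invariants] at hw
      have h3 := hw ⟨x, Subgroup.mem_zpowers x⟩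
      by_contra hw0
      exact hcon w hw0 h3
    rw [h2, finrank_bot, Nat.cast_zero, mul_zero]
  have hB : ∃ b : ℕ, ∑ g : T, phi t i (g : H) = 15751 * b := by
    refine ⟨Module.finrank (ResidueField V) (Representation.invariants (τ.comp T.subtype)), ?_⟩
    rw [Finset.sum_congr rfl fun (g : T) _ => hphi (g : H) (hreg _ g.2), sum_bc hM hV τ _ hTc, h.card]
    norm_num
  obtain ⟨b, hb⟩ := hB
  -- the block
  obtain ⟨χ, hχ⟩ := exists_under hM hV i
  have hunion : IsUnion M (blockOf M (χ : H → ℂ)) := fun ψ ψ' h1 h2 => sameBlock_trans h2 h1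
  have hspan : phi t i ∈ (charSpan (blockOf M (χ : H → ℂ))).map (pReg t) := by
    rw [map_pReg_charSpan hM hV hunion]
    exact Submodule.subset_span ⟨i, ⟨χ, mem_blockOf_self χ, hχ⟩, rfl⟩
  obtain ⟨w, hw, hwphi⟩ := hspan
  have hval : ∀ g ∈ T, phi t i g = w g := by
    intro g hg
    rw [← hwphi, pReg_of (hreg g hg)]
  by_cases hall : ∀ ψ ∈ blockOf M (χ : H → ℂ), ∃ c : ℤ, ∀ x ∈ T, x ≠ 1 → (ψ : H → ℂ) x = c
  · -- all characters of the block are constant on `T - 1`
    have hc : ∃ c : ℂ, ∀ x ∈ T, x ≠ 1 → w x = c := by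
      unfold charSpan at hw
      refine Submodule.span_induction (p := fun u _ => ∃ c : ℂ, ∀ x ∈ T, x ≠ 1 → u x = c) ?_ ?_ ?_ ?_ hw
      · rintro _ ⟨ψ, hψ, rfl⟩
        obtain ⟨c, hc⟩ := hall ψ hψ
        exact ⟨c, hc⟩
      · exact ⟨0, fun _ _ _ => rfl⟩
      · rintro a b _ _ ⟨c, hc⟩ ⟨d, hd⟩
        exact ⟨c + d, fun x hx hx1 => by rw [Pi.add_apply, hc x hx hx1, hd x hx hx1]⟩
      · rintro a u _ ⟨c, hc⟩
        exact ⟨a * c, fun x hx hx1 => by rw [Pi.smul_apply, hc x hx hx1, smul_eq_mul]⟩
    obtain ⟨c, hc⟩ := hc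
    have hA' := sum_const (P := Subgroup.zpowers x) (f := fun g => phi t i (g : H)) (c := c) (fun g hg => by
      rw [hval _ (hxT g.2), hc _ (hxT g.2) (fun h0 => hg (Subtype.ext h0))])
    have hB' := sum_const (P := T) (f := fun g => phi t i (g : H)) (c := c) (fun g hg => by
      rw [hval _ g.2, hc _ g.2 (fun h0 => hg (Subtype.ext h0))])
    rw [hA, Nat.card_zpowers, hxo] at hA'
    rw [hb, h.card] at hB'
    simp only [Subgroup.coe_one, hphi1] at hA' hB'
    -- `n + 828 c = 0`, `n + 15750 c = 15751 b`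
    have h3 : (828 * 15751 * b + 14922 * n : ℂ) = 0 := by
      push_cast at hA' hB'
      linear_combination 828 * hB' - 15750 * hA'
    have h4 : 828 * 15751 * b + 14922 * n = 0 := by exact_mod_cast h3
    omega
  · push Not at hall
    obtain ⟨ψ, hψ, hψc⟩ := hall
    have hψd : charDegree (ψ : H → ℂ) = 1937376 ∧ ∀ x ∈ T, x ≠ 1 → ‖(ψ : H → ℂ) x‖ ≤ 3 := by
      rcases hd ψ with ⟨c, hc⟩ | h1
      · exfalso
        obtain ⟨y, hy, hy1, hyc⟩ := hψc c
        exact hyc (hc y hy hy1)
      · exact h1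
    have hz : ¬ t ∣ Nat.card H / charDegree (ψ : H → ℂ) := by
      rw [hψd.1, h.ord]
      rcases ht with rfl | rfl <;> norm_num
    have hbl : blockOf M (χ : H → ℂ) = {ψ} := by
      rw [← (S0914.result t M hM ψ).1 hz]
      exact blockOf_eq_of_sameBlock hψ
    rw [hbl] at hw
    have hw' : ∃ a : ℂ, w = a • (ψ : H → ℂ) := by
      unfold charSpan at hw
      rw [Set.image_singleton] at hw
      obtain ⟨a, ha⟩ := Submodule.mem_span_singleton.1 hw
      exact ⟨a, ha.symm⟩
    obtain ⟨a, rfl⟩ := hw'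
    have ha0 : a ≠ 0 := by
      rintro rfl
      have h5 := hval 1 (one_mem _)
      rw [hphi1, zero_smul, Pi.zero_apply, Nat.cast_eq_zero] at h5
      exact hn h5
    have hsum : ∑ g : Subgroup.zpowers x, (ψ : H → ℂ) (g : H) = 0 := by
      have h5 : ∑ g : Subgroup.zpowers x, phi t i (g : H) = a * ∑ g : Subgroup.zpowers x, (ψ : H → ℂ) (g : H) := by
        rw [Finset.mul_sum]
        exact Finset.sum_congr rfl fun g _ => hval _ (hxT g.2)
      rw [hA] at h5
      exact (mul_eq_zero.1 h5.symm).resolve_left ha0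
    rw [← Finset.add_sum_erase Finset.univ (fun g : Subgroup.zpowers x => (ψ : H → ℂ) (g : H))
      (Finset.mem_univ (1 : Subgroup.zpowers x))] at hsum
    have h6 : ‖∑ g ∈ Finset.univ.erase (1 : Subgroup.zpowers x), (ψ : H → ℂ) (g : H)‖ ≤ 828 * 3 := by
      refine (norm_sum_le_of_le (f := fun g : Subgroup.zpowers x => (ψ : H → ℂ) (g : H)) _
        (n := fun _ => (3 : ℝ)) fun g hg => ?_).trans ?_
      · exact hψd.2 _ (hxT g.2) (fun h0 => (Finset.mem_erase.1 hg).1 (Subtype.ext h0))
      · rw [Finset.sum_const, Finset.card_erase_of_mem (Finset.mem_univ _), Finset.card_univ,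
          ← Nat.card_eq_fintype_card, Nat.card_zpowers, hxo]
        norm_num
    have h7 : ((ψ : H → ℂ) ((1 : Subgroup.zpowers x) : H)) = (1937376 : ℂ) := by
      rw [Subgroup.coe_one, irr_one_eq_charDegree ψ.2, hψd.1]
      norm_num
    rw [h7] at hsum
    have h8 : ∑ g ∈ Finset.univ.erase (1 : Subgroup.zpowers x), (ψ : H → ℂ) (g : H) = -1937376 := by
      linear_combination hsum
    rw [h8, norm_neg] at h6
    norm_num at h6

end irr

section main

open scoped TensorProduct

theorem asAlgebraHom_sub {K : Type*} [Field K] {H : Type*} [Group H] {W : Type*} [AddCommGroup W] [Module K W]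
    (σ : Representation K H W) (x : H) :
    σ.asAlgebraHom (MonoidAlgebra.single x 1 - 1) = σ x - 1 := by
  rw [map_sub, map_one, Representation.asAlgebraHom_single, one_smul]

theorem det_ne_zero_of {K : Type*} [Field K] {W : Type*} [AddCommGroup W] [Module K W] [FiniteDimensional K W]
    (f : Module.End K W) (h : ∀ w, w ≠ 0 → f w ≠ w) : LinearMap.det (f - 1) ≠ 0 := by
  have hker : LinearMap.ker (f - 1) = ⊥ := by
    rw [LinearMap.ker_eq_bot']
    intro w hw
    by_contra hw0
    apply h w hw0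
    rw [LinearMap.sub_apply, Module.End.one_apply, sub_eq_zero] at hw
    exact hw
  have h1 := (LinearMap.isUnit_iff_ker_eq_bot (f - 1)).2 hker
  exact ((LinearMap.isUnit_iff_isUnit_det _).1 h1).ne_zero

theorem det_eq_zero_of {K : Type*} [Field K] {W : Type*} [AddCommGroup W] [Module K W] [FiniteDimensional K W]
    (f : Module.End K W) (h : ∃ w, w ≠ 0 ∧ f w = w) : LinearMap.det (f - 1) = 0 := by
  by_contra h1
  obtain ⟨w, hw, hfw⟩ := h
  have h2 := (LinearMap.isUnit_iff_ker_eq_bot (f - 1)).1
    ((LinearMap.isUnit_iff_isUnit_det _).2 (isUnit_iff_ne_zero.2 h1))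
  rw [LinearMap.ker_eq_bot'] at h2
  apply hw
  apply h2
  rw [LinearMap.sub_apply, Module.End.one_apply, hfw, sub_self]

/-- From the irreducible representations over an extension field to all representations. -/
theorem exists_fix_of_irr {k K : Type*} [Field k] [Field K] [Algebra k K] {H : Type*} [Group H] (x : H)
    (hirr : ∀ (n : ℕ) (τ : Representation K H (Fin n → K)), τ.IsIrreducible → ∃ w, w ≠ 0 ∧ τ x w = w)
    {W : Type*} [AddCommGroup W] [Module k W] [FiniteDimensional k W] [Nontrivial W] (σ : Representation k H W) :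
    ∃ w, w ≠ 0 ∧ σ x w = w := by
  by_contra hcon
  push Not at hcon
  have hdet := det_ne_zero_of (σ x) hcon
  let σK : Representation K H (K ⊗[k] W) :=
    ((Module.End.baseChangeHom (R := k) (A := K) (M := W) : Module.End k W →* Module.End K (K ⊗[k] W))).comp σ
  have h1 : ∀ g, σK g = (σ g).baseChange K := fun _ => rfl
  have h2 : LinearMap.det (σK x - 1) = algebraMap k K (LinearMap.det (σ x - 1)) := by
    rw [← LinearMap.det_baseChange, LinearMap.baseChange_sub, LinearMap.baseChange_one, h1]
  obtain ⟨m, n, τ, hτ, hd⟩ := H657.Factors.exists_factors σK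
  have h3 := hd (MonoidAlgebra.single x 1 - 1)
  rw [asAlgebraHom_sub, h2] at h3
  have hm : 0 < m := by
    rcases Nat.eq_zero_or_pos m with rfl | h4
    · exfalso
      have h5 := hd 0
      rw [map_zero, Fin.prod_univ_zero] at h5
      have h6 : Nontrivial (K ⊗[k] W) := inferInstance
      rw [LinearMap.det_zero, zero_pow (Module.finrank_pos (R := K)).ne'] at h5
      exact zero_ne_one h5
    · exact h4
  have h4 : ∏ i, LinearMap.det ((τ i).asAlgebraHom (MonoidAlgebra.single x 1 - 1)) = 0 := by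
    refine Finset.prod_eq_zero (Finset.mem_univ (⟨0, hm⟩ : Fin m)) ?_
    rw [asAlgebraHom_sub]
    exact det_eq_zero_of _ (hirr _ _ (hτ _))
  rw [h4] at h3
  exact hdet ((map_eq_zero _).1 h3)

/-- an action on an elementary abelian group as a representation -/
def repZ (t : ℕ) {H : Type*} [Group H] {W : Type*} [AddCommGroup W] [Module (ZMod t) W] (ρ : H →* AddMonoid.End W) :
    Representation (ZMod t) H W where
  toFun g :=
    { toFun := fun w => ρ g w
      map_add' := map_add (ρ g)
      map_smul' := ZMod.map_smul (ρ g) }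
  map_one' := by
    refine LinearMap.ext fun w => ?_
    rw [Module.End.one_apply, LinearMap.coe_mk, AddHom.coe_mk, map_one, AddMonoid.End.coe_one, id_eq]
  map_mul' := by
    intro a b
    refine LinearMap.ext fun w => ?_
    rw [Module.End.mul_apply, LinearMap.coe_mk, AddHom.coe_mk, LinearMap.coe_mk, AddHom.coe_mk,
      LinearMap.coe_mk, AddHom.coe_mk, map_mul, AddMonoid.End.coe_mul, Function.comp_apply]

theorem exists_fix_repZ {t : ℕ} [Fact t.Prime] {K : Type*} [Field K] [CharP K t] {H : Type*} [Group H] (x : H)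
    (hirr : ∀ (n : ℕ) (τ : Representation K H (Fin n → K)), τ.IsIrreducible → ∃ w, w ≠ 0 ∧ τ x w = w)
    {W : Type*} [AddCommGroup W] [Nontrivial W] [Finite W] [Module (ZMod t) W] (ρ : H →* AddMonoid.End W) :
    ∃ w, w ≠ 0 ∧ ρ x w = w := by
  let _ : Algebra (ZMod t) K := ZMod.algebra K t
  have hfin : Module.Finite (ZMod t) W := Module.Finite.of_finite
  exact exists_fix_of_irr x hirr (repZ t ρ)

variable {H : Type u} [Group H] [Finite H] {T : Subgroup H}

/-- **Characteristics 2 and 3.** -/
theorem modular (h : TI H T)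
    (hd : ∀ χ : IrrCharacter H, (∃ c : ℤ, ∀ x ∈ T, x ≠ 1 → (χ : H → ℂ) x = c) ∨
      (charDegree (χ : H → ℂ) = 1937376 ∧ ∀ x ∈ T, x ≠ 1 → ‖(χ : H → ℂ) x‖ ≤ 3)) {t : ℕ} (ht : t = 2 ∨ t = 3) :
    Fixes.{u, v} H t 829 := by
  intro W _ _ _ ρ htW
  classical
  have htp : t.Prime := by rcases ht with rfl | rfl <;> norm_num
  have hF : Fact t.Prime := ⟨htp⟩
  have h829 : Nat.Prime 829 := by norm_num
  have hF2 : Fact (Nat.Prime 829) := ⟨h829⟩
  obtain ⟨x, hx⟩ := exists_prime_orderOf_dvd_card' (G := T) 829 (by rw [h.card]; norm_num)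
  have hxo : orderOf (x : H) = 829 := by rw [← hx]; exact orderOf_injective T.subtype T.subtype_injective x
  refine ⟨x, hxo, ?_⟩
  obtain ⟨M, hM⟩ := Blocks.ExistsModular.exists_isPModular htp
  obtain ⟨V, hV⟩ := exists_above hM
  have hch : CharP (ResidueField V) t := hV.charP hM
  let _ : Module (ZMod t) W := AddCommGroup.zmodModule htW
  exact exists_fix_repZ (t := t) (K := ResidueField V) (x : H)
    (fun n τ hτ => exists_fix h hd ht hM hV τ hτ x.2 hxo) ρ

end main

end Cfsg.Agent.H412.E65Mod
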