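import Mathlib

/-!
# Frobenius actions on elementary abelian groups (helper412)

* `sum_eq_zero_imp`: if `g` normalises the finite group `Q`, no non-identity element of `Q` commutes with
  `g^j`, `0 < j < n`, and `1 + g + ... + g^(n-1)` kills the module `A` of exponent prime to `|Q|`, then `Q`
  acts trivially on `A`.
* `exists_pow_ne`: the same inside a group: some `v ∈ V` has `(v * g) ^ n ≠ g ^ n`.
-/

set_option autoImplicit false

namespace Cfsg.Agent.H412.FrobAct

open Finset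

section Module

variable {G A : Type*} [Group G] [AddCommGroup A]

/-- **Frobenius actions.** -/
theorem sum_eq_zero_imp (ρ : G →* AddMonoid.End A) (W : AddSubgroup A) (Q : Subgroup G) [Finite Q] {p : ℕ}
    (hp : ∀ a : A, p • a = 0) (hpQ : Nat.Coprime p (Nat.card Q)) (g : G) {n : ℕ} (hn : 0 < n)
    (hgQ : ∀ y ∈ Q, g⁻¹ * y * g ∈ Q)
    (hfree : ∀ j, 0 < j → j < n → ∀ y ∈ Q, g ^ j * y = y * g ^ j → y = 1)
    (hWQ : ∀ y ∈ Q, ∀ a ∈ W, ρ y a ∈ W)
    (hsum : ∀ a ∈ W, ∑ j ∈ range n, ρ (g ^ j) a = 0) :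
    ∀ y ∈ Q, ∀ a ∈ W, ρ y a = a := by
  classical
  have : Fintype Q := Fintype.ofFinite Q
  have hgQj : ∀ j : ℕ, ∀ y ∈ Q, (g ^ j)⁻¹ * y * g ^ j ∈ Q := by
    intro j
    induction j with
    | zero => intro y hy; simpa using hy
    | succ j ih =>
      intro y hy
      have h := hgQ _ (ih y hy)
      have h2 : g⁻¹ * ((g ^ j)⁻¹ * y * g ^ j) * g = (g ^ (j + 1))⁻¹ * y * g ^ (j + 1) := by
        rw [pow_succ]; group
      rwa [h2] at h
  intro y0 hy0 b hb
  set a : A := b - ρ y0 b with ha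
  have haW : a ∈ W := W.sub_mem hb (hWQ y0 hy0 b hb)
  -- the sum over `Q` kills `a`
  have hQa : ∑ y : Q, ρ (y : G) a = 0 := by
    rw [ha]
    have h1 : ∀ y : Q, ρ (y : G) (b - ρ y0 b) = ρ (y : G) b - ρ ((y : G) * y0) b := by
      intro y
      rw [map_sub, map_mul]
      rfl
    rw [Finset.sum_congr rfl (fun y _ => h1 y), Finset.sum_sub_distrib, sub_eq_zero]
    have h2 := (Equiv.sum_comp (Equiv.mulRight (⟨y0, hy0⟩ : Q)) (fun y : Q => ρ (y : G) b))
    rw [← h2]
    rfl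
  -- the key double sum
  have hkey : ∀ j, 0 < j → j < n → ∑ y : Q, ρ ((y : G)⁻¹ * g ^ j * y) a = 0 := by
    intro j hj0 hjn
    let φ : Q → Q := fun y => ⟨(g ^ j)⁻¹ * (y : G)⁻¹ * g ^ j * y, by
      exact Q.mul_mem (hgQj j _ (Q.inv_mem y.2)) y.2⟩
    have hφ : Function.Injective φ := by
      intro y z hyz
      have h1 : (g ^ j)⁻¹ * (y : G)⁻¹ * g ^ j * y = (g ^ j)⁻¹ * (z : G)⁻¹ * g ^ j * z :=
        congrArg Subtype.val hyz
      have h2 : (y : G)⁻¹ * g ^ j * y = (z : G)⁻¹ * g ^ j * z := by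
        have := congrArg (fun t => g ^ j * t) h1
        simpa [mul_assoc] using this
      have h3 : g ^ j * ((y : G) * (z : G)⁻¹) = ((y : G) * (z : G)⁻¹) * g ^ j := by
        have h4 := congrArg (fun t => (y : G) * t * (z : G)⁻¹) h2
        simp only [mul_assoc] at h4
        simpa [mul_assoc] using h4
      have h5 := hfree j hj0 hjn _ (Q.mul_mem y.2 (Q.inv_mem z.2)) h3
      apply Subtype.ext
      exact mul_inv_eq_one.1 h5
    have hφb : Function.Bijective φ := Finite.injective_iff_bijective.1 hφ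
    have h1 : ∀ y : Q, ρ ((y : G)⁻¹ * g ^ j * y) a = ρ (g ^ j) (ρ ((φ y : Q) : G) a) := by
      intro y
      have : (y : G)⁻¹ * g ^ j * y = g ^ j * ((φ y : Q) : G) := by
        simp only [φ]
        group
      rw [this, map_mul]
      rfl
    rw [Finset.sum_congr rfl (fun y _ => h1 y), ← map_sum]
    have h2 := Equiv.sum_comp (Equiv.ofBijective φ hφb) (fun y : Q => ρ (y : G) a)
    have h3 : ∑ y : Q, ρ ((φ y : Q) : G) a = ∑ y : Q, ρ (y : G) a := h2
    rw [h3, hQa, map_zero]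
  have hdouble : ∑ j ∈ range n, ∑ y : Q, ρ ((y : G)⁻¹ * g ^ j * y) a = 0 := by
    rw [Finset.sum_comm]
    apply Finset.sum_eq_zero
    intro y _
    have h1 : ∀ j, ρ ((y : G)⁻¹ * g ^ j * y) a = ρ ((y : G)⁻¹) (ρ (g ^ j) (ρ (y : G) a)) := by
      intro j
      rw [map_mul, map_mul]
      rfl
    rw [Finset.sum_congr rfl (fun j _ => h1 j), ← map_sum, hsum _ (hWQ _ y.2 _ haW), map_zero]
  obtain ⟨m, rfl⟩ : ∃ m, n = m + 1 := ⟨n - 1, by omega⟩
  rw [Finset.sum_range_succ'] at hdouble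
  rw [Finset.sum_eq_zero (fun j hj => hkey (j + 1) (by omega) (by
    have := Finset.mem_range.1 hj; omega)), zero_add] at hdouble
  have hcard : ∑ y : Q, ρ ((y : G)⁻¹ * g ^ 0 * y) a = Nat.card Q • a := by
    have h1 : ∀ y : Q, ρ ((y : G)⁻¹ * g ^ 0 * y) a = a := by
      intro y
      simp
    rw [Finset.sum_congr rfl (fun y _ => h1 y), Finset.sum_const, Finset.card_univ,
      Nat.card_eq_fintype_card]
  rw [hcard] at hdouble
  -- `a = 0`
  have ha0 : a = 0 := by
    have h1 : addOrderOf a ∣ p := addOrderOf_dvd_iff_nsmul_eq_zero.2 (hp a)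
    have h2 : addOrderOf a ∣ Nat.card Q := addOrderOf_dvd_iff_nsmul_eq_zero.2 hdouble
    have h3 : addOrderOf a = 1 := Nat.eq_one_of_dvd_coprimes hpQ h1 h2
    exact AddMonoid.addOrderOf_eq_one_iff.1 h3
  rw [ha, sub_eq_zero] at ha0
  exact ha0.symm

/-- A Frobenius action gives a non-zero fixed vector. -/
theorem exists_fixed (ρ : G →* AddMonoid.End A) (W : AddSubgroup A) (Q : Subgroup G) [Finite Q] {p : ℕ}
    (hp : ∀ a : A, p • a = 0) (hpQ : Nat.Coprime p (Nat.card Q)) (g : G) {n : ℕ} (hn : 0 < n)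
    (hgn : g ^ n = 1)
    (hgQ : ∀ y ∈ Q, g⁻¹ * y * g ∈ Q)
    (hfree : ∀ j, 0 < j → j < n → ∀ y ∈ Q, g ^ j * y = y * g ^ j → y = 1)
    (hWQ : ∀ y ∈ Q, ∀ a ∈ W, ρ y a ∈ W) (hWg : ∀ a ∈ W, ρ g a ∈ W)
    (hne : ∃ y ∈ Q, ∃ a ∈ W, ρ y a ≠ a) :
    ∃ a ∈ W, a ≠ 0 ∧ ρ g a = a := by
  by_contra hcon
  push Not at hcon
  obtain ⟨y, hy, b, hb, hyb⟩ := hne
  apply hyb
  have hWgj : ∀ j : ℕ, ∀ a ∈ W, ρ (g ^ j) a ∈ W := by
    intro j
    induction j with
    | zero => intro a ha; simpa using ha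
    | succ j ih =>
      intro a ha
      rw [pow_succ', map_mul]
      exact hWg _ (ih a ha)
  refine sum_eq_zero_imp ρ W Q hp hpQ g hn hgQ hfree hWQ (fun a ha => ?_) y hy b hb
  by_contra hne0
  refine hcon _ (AddSubgroup.sum_mem W (fun j _ => hWgj j a ha)) hne0 ?_
  rw [map_sum]
  have h1 : ∀ j, ρ g (ρ (g ^ j) a) = ρ (g ^ (j + 1)) a := by
    intro j
    rw [pow_succ', map_mul]
    rfl
  rw [Finset.sum_congr rfl (fun j _ => h1 j)]
  have h2 := Finset.sum_range_succ (fun j => ρ (g ^ j) a) n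
  have h3 := Finset.sum_range_succ' (fun j => ρ (g ^ j) a) n
  rw [h2, hgn, pow_zero] at h3
  exact (add_right_cancel h3).symm

end Module

section Conj

variable {G : Type*} [Group G]

/-- The commutative group structure on a subgroup of pairwise commuting elements. -/
@[reducible]
def commGp (V : Subgroup G) (hV : ∀ a ∈ V, ∀ b ∈ V, a * b = b * a) : CommGroup V :=
  { (inferInstance : Group V) with
    mul_comm := fun a b => Subtype.ext (hV a a.2 b b.2) }

/-- The additive commutative group structure. -/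
@[reducible]
def addGp (V : Subgroup G) (hV : ∀ a ∈ V, ∀ b ∈ V, a * b = b * a) : AddCommGroup (Additive V) :=
  letI := commGp V hV
  inferInstance

/-- Conjugation on a commutative normal subgroup, as endomorphisms. -/
def rho (V : Subgroup G) [V.Normal] (hV : ∀ a ∈ V, ∀ b ∈ V, a * b = b * a) :
    letI := addGp V hV
    G →* AddMonoid.End (Additive V) :=
  letI := addGp V hV
  { toFun := fun g =>
      { toFun := fun a => Additive.ofMul (MulAut.conjNormal g a.toMul)
        map_zero' := by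
          change Additive.ofMul (MulAut.conjNormal g (1 : V)) = Additive.ofMul (1 : V)
          rw [map_one]
        map_add' := by
          intro a b
          change Additive.ofMul (MulAut.conjNormal g (a.toMul * b.toMul)) =
            Additive.ofMul (MulAut.conjNormal g a.toMul * MulAut.conjNormal g b.toMul)
          rw [map_mul] }
    map_one' := by
      refine AddMonoidHom.ext fun a => ?_
      change Additive.ofMul (MulAut.conjNormal (1 : G) a.toMul) = a
      rw [map_one]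
      rfl
    map_mul' := by
      intro g h
      refine AddMonoidHom.ext fun a => ?_
      change Additive.ofMul (MulAut.conjNormal (g * h) a.toMul) =
        Additive.ofMul (MulAut.conjNormal g (MulAut.conjNormal h a.toMul))
      rw [map_mul]
      rfl }

theorem rho_apply (V : Subgroup G) [V.Normal] (hV : ∀ a ∈ V, ∀ b ∈ V, a * b = b * a) (g : G) (v : V) :
    ((rho V hV g (Additive.ofMul v)).toMul : G) = g * v * g⁻¹ := by
  exact MulAut.conjNormal_apply g v

/-- The norm of `v` under `g` as a product in the group. -/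
theorem mul_pow_eq (V : Subgroup G) [V.Normal] (hV : ∀ a ∈ V, ∀ b ∈ V, a * b = b * a) (g : G) (v : V)
    (n : ℕ) :
    ((v : G) * g) ^ n =
      ((letI := addGp V hV; ∑ j ∈ range n, rho V hV (g ^ j) (Additive.ofMul v)).toMul : G) * g ^ n := by
  let := addGp V hV
  induction n with
  | zero => simp
  | succ n ih =>
    rw [pow_succ, ih]
    rw [Finset.sum_range_succ, toMul_add, Subgroup.coe_mul, rho_apply, pow_succ]
    group

/-- **Frobenius actions inside a group.** -/
theorem exists_pow_ne (V Q : Subgroup G) [V.Normal] [Finite Q] (hV : ∀ a ∈ V, ∀ b ∈ V, a * b = b * a)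
    {p : ℕ} (hp : ∀ a ∈ V, a ^ p = 1) (hpQ : Nat.Coprime p (Nat.card Q)) (g : G) {n : ℕ} (hn : 0 < n)
    (hgQ : ∀ y ∈ Q, g⁻¹ * y * g ∈ Q)
    (hfree : ∀ j, 0 < j → j < n → ∀ y ∈ Q, g ^ j * y = y * g ^ j → y = 1)
    (hne : ∃ y ∈ Q, ∃ v ∈ V, y * v ≠ v * y) : ∃ v ∈ V, (v * g) ^ n ≠ g ^ n := by
  let := addGp V hV
  by_contra hcon
  push Not at hcon
  obtain ⟨y, hy, v, hv, hyv⟩ := hne
  apply hyv
  have hp' : ∀ a : Additive V, p • a = 0 := by
    intro a
    change Additive.ofMul (a.toMul ^ p) = Additive.ofMul 1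
    congr 1
    exact Subtype.ext (hp _ a.toMul.2)
  have hsum : ∀ a ∈ (⊤ : AddSubgroup (Additive V)), ∑ j ∈ range n, rho V hV (g ^ j) a = 0 := by
    intro a _
    have h1 := hcon (a.toMul : G) a.toMul.2
    rw [mul_pow_eq V hV g a.toMul n, mul_eq_right] at h1
    have h2 : (∑ j ∈ range n, rho V hV (g ^ j) a).toMul = 1 := Subtype.ext h1
    exact h2
  have h := sum_eq_zero_imp (rho V hV) ⊤ Q hp' hpQ g hn hgQ hfree (fun _ _ _ _ => trivial) hsum y hy
    (Additive.ofMul ⟨v, hv⟩) trivial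
  have h1 := congrArg (fun t : Additive V => ((t.toMul : V) : G)) h
  simp only [rho_apply] at h1
  have h2 : y * v * y⁻¹ = v := h1
  exact mul_inv_eq_iff_eq_mul.1 h2

/-- Products `(v g)^n` lie in `V` when `g^n` does. -/
theorem mul_pow_mem (V : Subgroup G) [V.Normal] (g : G) {v : G} (hv : v ∈ V) {n : ℕ} (hg : g ^ n ∈ V) :
    (v * g) ^ n ∈ V := by
  rw [← QuotientGroup.eq_one_iff] at hg hv ⊢
  rw [QuotientGroup.mk_pow, QuotientGroup.mk_mul, hv, one_mul, ← QuotientGroup.mk_pow, hg]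

/-- A Frobenius action gives a non-trivial element of `V` commuting with `g`. -/
theorem exists_commute (V Q : Subgroup G) [V.Normal] [Finite Q] (hV : ∀ a ∈ V, ∀ b ∈ V, a * b = b * a)
    {p : ℕ} (hp : ∀ a ∈ V, a ^ p = 1) (hpQ : Nat.Coprime p (Nat.card Q)) (g : G) {n : ℕ} (hn : 0 < n)
    (hgn : g ^ n = 1) (hgQ : ∀ y ∈ Q, g⁻¹ * y * g ∈ Q)
    (hfree : ∀ j, 0 < j → j < n → ∀ y ∈ Q, g ^ j * y = y * g ^ j → y = 1)
    (hne : ∃ y ∈ Q, ∃ v ∈ V, y * v ≠ v * y) : ∃ v ∈ V, v ≠ 1 ∧ g * v = v * g := by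
  obtain ⟨v, hv, h⟩ := exists_pow_ne V Q hV hp hpQ g hn hgQ hfree hne
  have hw : (v * g) ^ n ∈ V := mul_pow_mem V g hv (by rw [hgn]; exact V.one_mem)
  refine ⟨(v * g) ^ n, hw, by rwa [hgn] at h, ?_⟩
  have h1 : Commute ((v * g) ^ n) (v * g) := (Commute.refl (v * g)).pow_left n
  have h2 : Commute ((v * g) ^ n) v := hV _ hw _ hv
  have h3 : Commute ((v * g) ^ n) (v⁻¹ * (v * g)) := h2.inv_right.mul_right h1
  rw [inv_mul_cancel_left] at h3
  exact h3.symm

/-- Orders in an extension: if `g` has order `n` modulo `V` (exponent `p` prime) and the norm is not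
constant, then some element of `V g` has order `p * n`. -/
theorem exists_orderOf (V : Subgroup G) [V.Normal] {p : ℕ} (hpp : p.Prime)
    (hp : ∀ a ∈ V, a ^ p = 1) (g : G) {n : ℕ} (hn : orderOf (g : G ⧸ V) = n)
    (hne : g ^ n ≠ 1 ∨ ∃ v ∈ V, (v * g) ^ n ≠ g ^ n) (hn0 : 0 < n) : ∃ x : G, orderOf x = p * n := by
  have key : ∀ x : G, (x : G ⧸ V) = (g : G ⧸ V) → x ^ n ≠ 1 → orderOf x = p * n := by
    intro x hx hx1
    have hxV : x ^ n ∈ V := by
      rw [← QuotientGroup.eq_one_iff, QuotientGroup.mk_pow, hx, ← hn, pow_orderOf_eq_one]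
    have h1 : orderOf (x ^ n) = p := by
      have h2 : orderOf (x ^ n) ∣ p := orderOf_dvd_of_pow_eq_one (hp _ hxV)
      rcases (Nat.dvd_prime hpp).1 h2 with h3 | h3
      · exact absurd (orderOf_eq_one_iff.1 h3) hx1
      · exact h3
    have h3 : n ∣ orderOf x := by
      rw [← hn, ← hx]
      exact orderOf_map_dvd (QuotientGroup.mk' V) x
    obtain ⟨k, hk⟩ := h3
    have h4 : orderOf (x ^ n) = k := by
      rcases Nat.eq_zero_or_pos k with hk0 | hk0
      · subst hk0
        rw [mul_zero] at hk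
        rw [orderOf_eq_zero_iff] at hk ⊢
        intro h5
        apply hk
        obtain ⟨m, hm, hm1⟩ := h5.exists_pow_eq_one
        exact isOfFinOrder_iff_pow_eq_one.2 ⟨n * m, by positivity, by rw [pow_mul, hm1]⟩
      · rw [orderOf_pow' x (by omega), hk, Nat.gcd_eq_right (Dvd.intro _ rfl),
          Nat.mul_div_cancel_left _ hn0]
    rw [hk, ← h4, h1, mul_comm]
  rcases hne with h | ⟨v, hv, h⟩
  · exact ⟨g, key g rfl h⟩
  · by_cases hg : g ^ n = 1
    · refine ⟨v * g, key _ ?_ (by rwa [hg] at h)⟩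
      rw [QuotientGroup.mk_mul, (QuotientGroup.eq_one_iff v).2 hv, one_mul]
    · exact ⟨g, key g rfl hg⟩

end Conj

end Cfsg.Agent.H412.FrobAct
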