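import Cfsg.Agent.TypeD4Two.FieldIso

/-!
# `²G₂` over isomorphic fields (helper412)
-/

set_option autoImplicit false

namespace Cfsg.Agent.H412.ReeField

open Cfsg.Lie Cfsg.Agent.TypeD4Two.FieldIso

variable {F K : Type*} [Field F] [Field K] (σ : F ≃+* K)

theorem mapW_negWord (D : ChevalleyDatum) (w : List (ℕ × F)) : mapW σ (D.negWord w) = D.negWord (mapW σ w) := by
  unfold mapW ChevalleyDatum.negWord
  rw [List.map_map, List.map_map]
  apply List.map_congr_left
  intro p _
  simp

theorem mapW_reeWordU (e : ℕ) (t u v : F) : mapW σ (reeWordU e t u v) = reeWordU e (σ t) (σ u) (σ v) := by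
  unfold mapW reeWordU
  simp

theorem g2Words_map (e : ℕ) : mapW σ '' g2Words F e = g2Words K e := by
  apply Set.eq_of_subset_of_subset
  · rintro _ ⟨w, ⟨t, u, v, h⟩, rfl⟩
    refine ⟨σ t, σ u, σ v, ?_⟩
    rcases h with rfl | rfl
    · exact Or.inl (mapW_reeWordU σ e t u v)
    · right
      unfold reeWordV
      rw [mapW_negWord, mapW_reeWordU]
  · rintro w ⟨t, u, v, h⟩
    rcases h with rfl | rfl
    · refine ⟨reeWordU e (σ.symm t) (σ.symm u) (σ.symm v), ⟨_, _, _, Or.inl rfl⟩, ?_⟩
      rw [mapW_reeWordU, σ.apply_symm_apply, σ.apply_symm_apply, σ.apply_symm_apply]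
    · refine ⟨reeWordV e (σ.symm t) (σ.symm u) (σ.symm v), ⟨_, _, _, Or.inr rfl⟩, ?_⟩
      unfold reeWordV
      rw [mapW_negWord, mapW_reeWordU, σ.apply_symm_apply, σ.apply_symm_apply, σ.apply_symm_apply]

/-- `²G₂` over isomorphic fields. -/
noncomputable def twistedG2Congr (e : ℕ) : twistedG2 F e ≃* twistedG2 K e :=
  ((twistedG2 F e).equivMapOfInjective _ (map_injective' σ chevG2)).trans
    (MulEquiv.subgroupCongr (by
      unfold twistedG2
      rw [genSubgroup_map, g2Words_map]))

theorem twistedG2_congr {F K : Type*} [Field F] [Field K] [Fintype F] [Fintype K]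
    (h : Fintype.card F = Fintype.card K) (e : ℕ) : Nonempty (twistedG2 F e ≃* twistedG2 K e) :=
  ⟨twistedG2Congr (FiniteField.ringEquivOfCardEq h) e⟩

end Cfsg.Agent.H412.ReeField
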